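import Cfsg.Agent.H284.EP.TForm

/-!
# Orbits of `A` on `Q ⧸ A` and fixed points (helper475; tight rows of S3499)

* `fx A D` : number of points of `Q ⧸ A` fixed by `D`; `fr A M D` : number of points of `A ⧸ M` fixed by `D`;
* `orbits` : `Q ⧸ A` is one point and the `A ⧸ M_i`, `M_i = A ⊓ cj (x i) A`, `x i ∉ A`;
* `fx_mul`, `fr_mul` : `fx A D * |A| = #{g | D ≤ cj g A}`, `fr A M D * |M| = #{a ∈ A | D ≤ cj a M}`;
* `fx_elt`, `fr_elt` : for one element `z`: `fx A ⟨z⟩ * |A| = |C_Q(z)| * |z^Q ∩ A|` etc.;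
* `fx_sylow`, `fr_sylow` : for a Sylow subgroup `Y` of `A`: `fx A Y * |N_A(Y)| = |N_Q(Y)|`.
-/

set_option autoImplicit false
set_option linter.unusedSectionVars false

namespace Cfsg.Agent.H475.EP

open Subgroup MulAction Cfsg.Agent.H284
open scoped Pointwise

variable {Q : Type*} [Group Q] [Finite Q]

/-- number of points of `Q ⧸ A` fixed by `D` -/
noncomputable def fx (A D : Subgroup Q) : ℕ := Nat.card {c : Q ⧸ A // ∀ d ∈ D, d • c = c}

/-- number of points of `A ⧸ M` fixed by `D` (`M, D ≤ A`) -/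
noncomputable def fr (A M D : Subgroup Q) : ℕ :=
  Nat.card {c : A ⧸ M.subgroupOf A // ∀ d : A, (d : Q) ∈ D → d • c = c}

theorem fx_bot (A : Subgroup Q) : fx A ⊥ = A.index := by
  unfold fx
  rw [Subgroup.index]
  refine Nat.card_congr (Equiv.subtypeUnivEquiv ?_)
  intro c d hd
  rw [mem_bot.1 hd, one_smul]

theorem fr_bot (A M : Subgroup Q) : fr A M ⊥ = M.relIndex A := by
  unfold fr
  rw [Subgroup.relIndex, Subgroup.index]
  refine Nat.card_congr (Equiv.subtypeUnivEquiv ?_)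
  intro c d hd
  have : d = 1 := Subtype.ext (mem_bot.1 hd)
  rw [this, one_smul]

/-- the map `a M ↦ a x A` -/
def toQ (A : Subgroup Q) (x : Q) : A ⧸ (A ⊓ cj x A).subgroupOf A → Q ⧸ A :=
  Quotient.lift (fun a : A => ((a * x : Q) : Q ⧸ A)) (by
    intro a b hab
    rw [← Quotient.eq_iff_equiv, QuotientGroup.eq] at hab
    rw [QuotientGroup.eq]
    have h1 := (mem_inf.1 (mem_subgroupOf.1 hab)).2
    rw [mem_cj] at h1
    have e : (a * x : Q)⁻¹ * (b * x) = x⁻¹ * ((a⁻¹ * b : A) : Q) * x := by push_cast; group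
    rw [e]
    exact h1)

theorem toQ_mk (A : Subgroup Q) (x : Q) (a : A) : toQ A x (a : A ⧸ _) = ((a * x : Q) : Q ⧸ A) := rfl

theorem toQ_inj (A : Subgroup Q) (x : Q) : Function.Injective (toQ A x) := by
  intro c d h
  obtain ⟨a, rfl⟩ := QuotientGroup.mk_surjective c
  obtain ⟨b, rfl⟩ := QuotientGroup.mk_surjective d
  rw [toQ_mk, toQ_mk, QuotientGroup.eq] at h
  rw [QuotientGroup.eq, mem_subgroupOf, mem_inf, mem_cj]
  refine ⟨(a⁻¹ * b).2, ?_⟩
  have e : (a * x : Q)⁻¹ * (b * x) = x⁻¹ * ((a⁻¹ * b : A) : Q) * x := by push_cast; group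
  rwa [e] at h

theorem toQ_smul (A : Subgroup Q) (x : Q) (d : A) (c : A ⧸ (A ⊓ cj x A).subgroupOf A) :
    toQ A x (d • c) = (d : Q) • toQ A x c := by
  obtain ⟨a, rfl⟩ := QuotientGroup.mk_surjective c
  rw [toQ_mk]
  show toQ A x ((d * a : A) : A ⧸ _) = ((d * (a * x) : Q) : Q ⧸ A)
  rw [toQ_mk]
  push_cast
  rw [mul_assoc]

/-- the points of the orbit of `xA` fixed by `D` -/
theorem card_orbit_fix (A D : Subgroup Q) (hD : D ≤ A) (x : Q) :
    Nat.card {c : Q ⧸ A // (∃ a : A, c = ((a * x : Q) : Q ⧸ A)) ∧ ∀ d ∈ D, d • c = c} = fr A (A ⊓ cj x A) D := by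
  unfold fr
  refine (Nat.card_congr (Equiv.ofBijective
    (fun c : {c : A ⧸ (A ⊓ cj x A).subgroupOf A // ∀ d : A, (d : Q) ∈ D → d • c = c} =>
      (⟨toQ A x c.1, ?_, ?_⟩ : {c : Q ⧸ A // (∃ a : A, c = ((a * x : Q) : Q ⧸ A)) ∧ ∀ d ∈ D, d • c = c})) ⟨?_, ?_⟩)).symm
  · obtain ⟨a, ha⟩ := QuotientGroup.mk_surjective c.1
    exact ⟨a, by rw [← ha, toQ_mk]⟩
  · intro d hd
    have := toQ_smul A x ⟨d, hD hd⟩ c.1
    rw [c.2 ⟨d, hD hd⟩ hd] at this
    exact this.symm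
  · intro c d h
    exact Subtype.ext (toQ_inj A x (congrArg Subtype.val h))
  · rintro ⟨c, ⟨a, rfl⟩, hc⟩
    refine ⟨⟨((a : A) : A ⧸ _), ?_⟩, Subtype.ext rfl⟩
    intro d hd
    apply toQ_inj A x
    rw [toQ_smul, toQ_mk]
    exact hc d hd

/-- **Orbit decomposition**: `Q ⧸ A` is the base point and the `A ⧸ (A ⊓ cj (x i) A)`. -/
theorem orbits (A : Subgroup Q) : ∃ (k : ℕ) (x : Fin k → Q), (∀ i, x i ∉ A) ∧
    (∀ y, y ∉ A → ∃ i, ∃ a ∈ A, (a * x i)⁻¹ * y ∈ A) ∧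
    A.index = 1 + ∑ i, (A ⊓ cj (x i) A).relIndex A ∧
    ∀ D : Subgroup Q, D ≤ A → fx A D = 1 + ∑ i, fr A (A ⊓ cj (x i) A) D := by
  classical
  let O := orbitRel.Quotient A (Q ⧸ A)
  have : Finite O := Quotient.finite _
  let ω0 : O := Quotient.mk'' ((1 : Q) : Q ⧸ A)
  obtain ⟨k, ⟨e⟩⟩ := Finite.exists_equiv_fin {ω : O // ω ≠ ω0}
  have hrep : ∀ ω : O, ∃ y : Q, (Quotient.mk'' ((y : Q) : Q ⧸ A) : O) = ω := by
    intro ω
    obtain ⟨c, rfl⟩ := Quotient.exists_rep ω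
    obtain ⟨y, rfl⟩ := QuotientGroup.mk_surjective c
    exact ⟨y, rfl⟩
  choose y hy using hrep
  have hmem : ∀ (c d : Q), (Quotient.mk'' ((c : Q) : Q ⧸ A) : O) = Quotient.mk'' ((d : Q) : Q ⧸ A) ↔
      ∃ a : A, ((c : Q) : Q ⧸ A) = ((a * d : Q) : Q ⧸ A) := by
    intro c d
    rw [Quotient.eq'']
    constructor
    · rintro ⟨a, ha⟩
      exact ⟨a, ha.symm⟩
    · rintro ⟨a, ha⟩
      exact ⟨a, ha.symm⟩
  have hx : ∀ i, y (e.symm i).1 ∉ A := by
    intro i hi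
    apply (e.symm i).2
    rw [← hy (e.symm i).1]
    rw [hmem]
    refine ⟨1, ?_⟩
    rw [QuotientGroup.eq]
    simpa using hi
  have hfix : ∀ D : Subgroup Q, D ≤ A → fx A D = 1 + ∑ i, fr A (A ⊓ cj (y (e.symm i).1) A) D := by
    intro D hD
    have : Fintype O := Fintype.ofFinite O
    have h1 : fx A D = ∑ ω : O, Nat.card {c : Q ⧸ A // (∃ a : A, c = ((a * y ω : Q) : Q ⧸ A)) ∧ ∀ d ∈ D, d • c = c} := by
      unfold fx
      rw [← Nat.card_sigma]
      refine Nat.card_congr ⟨fun c => ⟨Quotient.mk'' c.1, c.1, ?_, c.2⟩, fun c => ⟨c.2.1, c.2.2.2⟩, ?_, ?_⟩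
      · obtain ⟨g, hg⟩ := QuotientGroup.mk_surjective c.1
        rw [← hg]
        exact (hmem g _).1 (hy _).symm
      · intro c
        rfl
      · rintro ⟨ω, c, ⟨a, ha⟩, hc⟩
        have e1 : (Quotient.mk'' c : O) = ω := by
          rw [← hy ω, ha]
          exact (hmem _ _).2 ⟨a, rfl⟩
        subst e1
        rfl
    rw [h1, ← Finset.add_sum_erase Finset.univ _ (Finset.mem_univ ω0)]
    congr 1
    · rw [Nat.card_eq_one_iff_unique]
      have hy0 : y ω0 ∈ A := by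
        obtain ⟨a, ha⟩ := (hmem _ _).1 (hy ω0)
        rw [QuotientGroup.eq] at ha
        have : y ω0 = a * ((y ω0)⁻¹ * (a * 1 : Q))⁻¹ := by group
        rw [this]
        exact A.mul_mem a.2 (A.inv_mem ha)
      refine ⟨⟨?_⟩, ⟨⟨((1 : Q) : Q ⧸ A), ⟨⟨(y ω0)⁻¹, A.inv_mem hy0⟩, ?_⟩, ?_⟩⟩⟩
      · rintro ⟨c, ⟨a, ha⟩, _⟩ ⟨d, ⟨b, hb⟩, _⟩
        apply Subtype.ext
        show c = d
        rw [ha, hb, QuotientGroup.eq]
        exact A.mul_mem (A.inv_mem (A.mul_mem a.2 hy0)) (A.mul_mem b.2 hy0)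
      · congr 1
        exact (inv_mul_cancel _).symm
      · intro d hd
        show ((d * 1 : Q) : Q ⧸ A) = _
        rw [QuotientGroup.eq, mul_one, mul_one]
        exact A.inv_mem (hD hd)
    · rw [Finset.sum_subtype (s := Finset.univ.erase ω0) (p := fun ω => ω ≠ ω0)
        (f := fun ω => Nat.card {c : Q ⧸ A // (∃ a : A, c = ((a * y ω : Q) : Q ⧸ A)) ∧ ∀ d ∈ D, d • c = c})
        (by intro x; simp)]
      rw [← e.symm.sum_comp]
      refine Finset.sum_congr rfl fun i _ => ?_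
      exact card_orbit_fix A D hD _
  refine ⟨k, fun i => y (e.symm i).1, hx, ?_, ?_, hfix⟩
  · intro z hz
    have hne : (Quotient.mk'' ((z : Q) : Q ⧸ A) : O) ≠ ω0 := by
      intro h
      obtain ⟨a, ha⟩ := (hmem _ _).1 h
      rw [QuotientGroup.eq] at ha
      apply hz
      have : z = a * (z⁻¹ * (a * 1 : Q))⁻¹ := by group
      rw [this]
      exact A.mul_mem a.2 (A.inv_mem ha)
    refine ⟨e ⟨_, hne⟩, ?_⟩
    simp only [Equiv.symm_apply_apply]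
    obtain ⟨a, ha⟩ := (hmem _ _).1 (hy (Quotient.mk'' ((z : Q) : Q ⧸ A))).symm
    rw [eq_comm, QuotientGroup.eq] at ha
    exact ⟨a, a.2, ha⟩
  · have h1 := hfix ⊥ bot_le
    rw [fx_bot] at h1
    rw [h1]
    congr 1
    exact Finset.sum_congr rfl fun i _ => fr_bot _ _

/-! ### Counting fixed points -/

theorem smul_mk_eq (A : Subgroup Q) (d g : Q) : d • ((g : Q) : Q ⧸ A) = (g : Q ⧸ A) ↔ g⁻¹ * d * g ∈ A := by
  rw [show d • ((g : Q) : Q ⧸ A) = ((d * g : Q) : Q ⧸ A) from rfl, eq_comm, QuotientGroup.eq, mul_assoc]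

theorem fx_mul (A D : Subgroup Q) : fx A D * Nat.card A = Nat.card {g : Q // ∀ d ∈ D, g⁻¹ * d * g ∈ A} := by
  classical
  unfold fx
  rw [← Nat.card_prod]
  have hout : ∀ c : Q ⧸ A, ((c.out : Q) : Q ⧸ A) = c := fun c => Quotient.out_eq' c
  refine Nat.card_congr ⟨fun p => ⟨p.1.1.out * p.2, ?_⟩, fun g => ⟨⟨((g.1 : Q) : Q ⧸ A), ?_⟩,
    ⟨(((g.1 : Q) : Q ⧸ A).out)⁻¹ * g.1, ?_⟩⟩, ?_, ?_⟩
  · intro d hd
    rw [← smul_mk_eq, QuotientGroup.mk_mul_of_mem _ p.2.2, hout]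
    exact p.1.2 d hd
  · intro d hd
    exact (smul_mk_eq A d g.1).2 (g.2 d hd)
  · rw [← QuotientGroup.eq]
    exact hout _
  · rintro ⟨⟨c, hc⟩, a⟩
    have e1 : ((c.out * a : Q) : Q ⧸ A) = c := by rw [QuotientGroup.mk_mul_of_mem _ a.2, hout]
    refine Prod.ext (Subtype.ext e1) (Subtype.ext ?_)
    show (((c.out * a : Q) : Q ⧸ A).out)⁻¹ * (c.out * a) = a
    rw [e1]
    group
  · rintro ⟨g, hg⟩
    apply Subtype.ext
    show _ * (_⁻¹ * g) = g
    group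

theorem fr_eq (A M D : Subgroup Q) : fr A M D = fx (M.subgroupOf A) (D.subgroupOf A) := by
  unfold fr fx
  exact Nat.card_congr (Equiv.subtypeEquivRight fun c => forall_congr' fun d => by rw [mem_subgroupOf])

theorem fr_mul {A M D : Subgroup Q} (hM : M ≤ A) (hD : D ≤ A) :
    fr A M D * Nat.card M = Nat.card {a : A // ∀ d ∈ D, (a : Q)⁻¹ * d * a ∈ M} := by
  have h1 := fx_mul (M.subgroupOf A) (D.subgroupOf A)
  rw [← fr_eq, Nat.card_congr (Subgroup.subgroupOfEquivOfLe hM).toEquiv] at h1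
  rw [h1]
  refine Nat.card_congr (Equiv.subtypeEquivRight fun a => ⟨fun h d hd => ?_, fun h d hd => ?_⟩)
  · exact mem_subgroupOf.1 (h ⟨d, hD hd⟩ (mem_subgroupOf.2 hd))
  · exact mem_subgroupOf.2 (h d (mem_subgroupOf.1 hd))

/-- number of `g` with `g⁻¹ z g` in a set `S` -/
theorem card_conj (z : Q) (S : Set Q) : Nat.card {g : Q // g⁻¹ * z * g ∈ S} =
    Nat.card (centralizer {z} : Subgroup Q) * Nat.card {w : Q // w ∈ S ∧ ∃ g, w = g⁻¹ * z * g} := by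
  classical
  choose! c hc using (fun w (hw : ∃ g, w = g⁻¹ * z * g) => hw)
  rw [← Nat.card_prod]
  refine Nat.card_congr ⟨fun g => ⟨⟨g.1 * (c (g.1⁻¹ * z * g.1))⁻¹, ?_⟩, ⟨g.1⁻¹ * z * g.1, g.2, g.1, rfl⟩⟩,
    fun p => ⟨p.1.1 * c p.2.1, ?_⟩, ?_, ?_⟩
  · rw [mem_centralizer_singleton_iff]
    have h1 := hc (g.1⁻¹ * z * g.1) ⟨g.1, rfl⟩
    generalize c (g.1⁻¹ * z * g.1) = k at h1
    have h2 : z = g.1 * (k⁻¹ * z * k) * g.1⁻¹ := by rw [← h1]; group
    calc g.1 * k⁻¹ * z = g.1 * (k⁻¹ * z * k) * g.1⁻¹ * (g.1 * k⁻¹) := by group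
      _ = z * (g.1 * k⁻¹) := by rw [← h2]
  · have h1 := hc p.2.1 p.2.2.2
    have h2 := mem_centralizer_singleton_iff.1 p.1.2
    have e : (p.1.1 * c p.2.1)⁻¹ * z * (p.1.1 * c p.2.1) = p.2.1 := by
      calc (p.1.1 * c p.2.1)⁻¹ * z * (p.1.1 * c p.2.1) = (c p.2.1)⁻¹ * (p.1.1⁻¹ * (z * p.1.1)) * c p.2.1 := by group
        _ = (c p.2.1)⁻¹ * z * c p.2.1 := by rw [← h2]; group
        _ = p.2.1 := h1.symm
    show (p.1.1 * c p.2.1)⁻¹ * z * (p.1.1 * c p.2.1) ∈ S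
    rw [e]
    exact p.2.2.1
  · rintro ⟨g, hg⟩
    apply Subtype.ext
    show g * (c (g⁻¹ * z * g))⁻¹ * c (g⁻¹ * z * g) = g
    group
  · rintro ⟨⟨a, ha⟩, ⟨w, hw, hw'⟩⟩
    have h1 := hc w hw'
    have h2 := mem_centralizer_singleton_iff.1 ha
    have e : (a * c w)⁻¹ * z * (a * c w) = w := by
      calc (a * c w)⁻¹ * z * (a * c w) = (c w)⁻¹ * (a⁻¹ * (z * a)) * c w := by group
        _ = (c w)⁻¹ * z * c w := by rw [← h2]; group
        _ = w := h1.symm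
    refine Prod.ext (Subtype.ext ?_) (Subtype.ext e)
    show a * c w * (c ((a * c w)⁻¹ * z * (a * c w)))⁻¹ = a
    rw [e]
    group

/-- fixed points of an element on `Q ⧸ A` -/
theorem fx_elt (A : Subgroup Q) (z : Q) : fx A (zpowers z) * Nat.card A =
    Nat.card (centralizer {z} : Subgroup Q) * Nat.card {w : Q // w ∈ A ∧ ∃ g, w = g⁻¹ * z * g} := by
  rw [fx_mul, show Nat.card {w : Q // w ∈ A ∧ ∃ g, w = g⁻¹ * z * g} =
    Nat.card {w : Q // w ∈ (A : Set Q) ∧ ∃ g, w = g⁻¹ * z * g} from rfl, ← card_conj z (A : Set Q)]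
  refine Nat.card_congr (Equiv.subtypeEquivRight fun g => ⟨fun h => h z (mem_zpowers z), ?_⟩)
  rintro h d ⟨n, rfl⟩
  have e : g⁻¹ * z ^ n * g = (g⁻¹ * z * g) ^ n := by
    have := conj_zpow (a := g⁻¹) (b := z) (i := n)
    rw [inv_inv] at this
    exact this.symm
  show g⁻¹ * z ^ n * g ∈ A
  rw [e]
  exact A.zpow_mem h n

/-- fixed points of an element `z ∈ A` on `A ⧸ M` -/
theorem fr_elt {A M : Subgroup Q} (hM : M ≤ A) {z : Q} (hz : z ∈ A) : fr A M (zpowers z) * Nat.card M =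
    Nat.card (centralizer {z} ⊓ A : Subgroup Q) * Nat.card {w : Q // w ∈ M ∧ ∃ a ∈ A, w = a⁻¹ * z * a} := by
  have h1 := fx_elt (M.subgroupOf A) (⟨z, hz⟩ : A)
  have e0 : (zpowers z).subgroupOf A = zpowers (⟨z, hz⟩ : A) := by
    ext a
    rw [mem_subgroupOf, mem_zpowers_iff, mem_zpowers_iff]
    constructor
    · rintro ⟨n, hn⟩
      exact ⟨n, Subtype.ext (by push_cast; exact hn)⟩
    · rintro ⟨n, hn⟩
      exact ⟨n, by rw [← hn]; push_cast; rfl⟩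
  rw [fr_eq, e0, ← Nat.card_congr (Subgroup.subgroupOfEquivOfLe hM).toEquiv, h1]
  congr 1
  · refine Nat.card_congr ⟨fun a => ⟨a.1, ?_⟩, fun a => ⟨⟨a.1, a.2.2⟩, ?_⟩, fun a => rfl, fun a => rfl⟩
    · refine ⟨mem_centralizer_singleton_iff.2 ?_, a.1.2⟩
      exact congrArg Subtype.val (mem_centralizer_singleton_iff.1 a.2)
    · rw [mem_centralizer_singleton_iff]
      exact Subtype.ext (mem_centralizer_singleton_iff.1 a.2.1)
  · refine Nat.card_congr ⟨fun w => ⟨w.1, mem_subgroupOf.1 w.2.1, ?_⟩,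
      fun w => ⟨⟨w.1, hM w.2.1⟩, mem_subgroupOf.2 w.2.1, ?_⟩, fun w => rfl, fun w => rfl⟩
    · obtain ⟨a, ha⟩ := w.2.2
      exact ⟨a, a.2, by rw [ha]; push_cast; rfl⟩
    · obtain ⟨a, ha, e⟩ := w.2.2
      exact ⟨⟨a, ha⟩, Subtype.ext (by push_cast; exact e)⟩

/-- two subgroups of `A` of order the full power `s ^ k` of `s` in `|A|` are conjugate in `A` -/
theorem sylow_conj {A Y Y' : Subgroup Q} {s : ℕ} [Fact s.Prime] (hY : Y ≤ A) (hY' : Y' ≤ A)
    (hc : Nat.card Y = s ^ (Nat.card A).factorization s) (hc' : Nat.card Y' = s ^ (Nat.card A).factorization s) :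
    ∃ a ∈ A, ∀ y, y ∈ Y ↔ a * y * a⁻¹ ∈ Y' := by
  have h1 : Nat.card (Y.subgroupOf A) = s ^ (Nat.card A).factorization s := by
    rw [Nat.card_congr (Subgroup.subgroupOfEquivOfLe hY).toEquiv, hc]
  have h2 : Nat.card (Y'.subgroupOf A) = s ^ (Nat.card A).factorization s := by
    rw [Nat.card_congr (Subgroup.subgroupOfEquivOfLe hY').toEquiv, hc']
  let P : Sylow s A := Sylow.ofCard (Y.subgroupOf A) h1
  let P' : Sylow s A := Sylow.ofCard (Y'.subgroupOf A) h2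
  obtain ⟨a, ha⟩ := MulAction.exists_smul_eq A P P'
  have ha' : (a • P : Sylow s A).1 = P'.1 := by rw [ha]
  refine ⟨a, a.2, fun y => ⟨fun hy => ?_, fun hy => ?_⟩⟩
  · have h3 : a * ⟨y, hY hy⟩ * a⁻¹ ∈ (a • P : Sylow s A).1 := by
      rw [Sylow.coe_subgroup_smul]
      exact ⟨⟨y, hY hy⟩, mem_subgroupOf.2 hy, rfl⟩
    rw [ha'] at h3
    exact mem_subgroupOf.1 h3
  · have hyA : y ∈ A := by
      have : y = (a : Q)⁻¹ * (a * y * (a : Q)⁻¹) * a := by group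
      rw [this]
      exact A.mul_mem (A.mul_mem (A.inv_mem a.2) (hY' hy)) a.2
    have h3 : a * ⟨y, hyA⟩ * a⁻¹ ∈ (a • P : Sylow s A).1 := by
      rw [ha']
      exact mem_subgroupOf.2 hy
    rw [Sylow.coe_subgroup_smul] at h3
    obtain ⟨p, hp, e⟩ := h3
    have e2 : a * p * a⁻¹ = a * ⟨y, hyA⟩ * a⁻¹ := e
    have e3 : p = ⟨y, hyA⟩ := mul_left_cancel (mul_right_cancel e2)
    rw [e3] at hp
    exact mem_subgroupOf.1 hp

/-- **Fixed points of a Sylow subgroup `Y` of `A` on `Q ⧸ A`**: `|Fix(Y)| |N_A(Y)| = |N_Q(Y)|`. -/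
theorem fx_sylow {A Y : Subgroup Q} {s : ℕ} [Fact s.Prime] (hY : Y ≤ A)
    (hc : Nat.card Y = s ^ (Nat.card A).factorization s) :
    fx A Y * Nat.card (normalizer (Y : Set Q) ⊓ A : Subgroup Q) = Nat.card (normalizer (Y : Set Q) : Subgroup Q) := by
  classical
  have key : ∀ g : Q, (∀ d ∈ Y, g⁻¹ * d * g ∈ A) → ∃ a ∈ A, g * a⁻¹ ∈ normalizer (Y : Set Q) := by
    intro g hg
    have hY' : cj g⁻¹ Y ≤ A := by
      intro w hw
      rw [mem_cj, inv_inv] at hw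
      have := hg _ hw
      have e : g⁻¹ * (g * w * g⁻¹) * g = w := by group
      rwa [e] at this
    have hcard : Nat.card (cj g⁻¹ Y : Subgroup Q) = s ^ (Nat.card A).factorization s := by
      rw [← hc]
      exact Nat.card_congr ((Y.equivMapOfInjective _ (MulAut.conj g⁻¹).injective).toEquiv.symm)
    obtain ⟨a, ha, h⟩ := sylow_conj hY' hY hcard hc
    refine ⟨a, ha, ?_⟩
    have h2 : a * g⁻¹ ∈ normalizer (Y : Set Q) := by
      intro n
      have h1 := h (g⁻¹ * n * g)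
      rw [mem_cj] at h1
      have e1 : (g⁻¹)⁻¹ * (g⁻¹ * n * g) * g⁻¹ = n := by group
      have e2 : a * (g⁻¹ * n * g) * a⁻¹ = a * g⁻¹ * n * (a * g⁻¹)⁻¹ := by group
      rw [e1, e2] at h1
      exact h1
    have e3 : g * a⁻¹ = (a * g⁻¹)⁻¹ := by group
    rw [e3]
    exact Subgroup.inv_mem _ h2
  have h1 : fx A Y = Nat.card (orbit (normalizer (Y : Set Q)) ((1 : Q) : Q ⧸ A)) := by
    unfold fx
    refine Nat.card_congr (Equiv.subtypeEquivRight fun c => ?_)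
    obtain ⟨g, rfl⟩ := QuotientGroup.mk_surjective c
    constructor
    · intro h
      obtain ⟨a, ha, hn⟩ := key g fun d hd => (smul_mk_eq A d g).1 (h d hd)
      refine ⟨⟨g * a⁻¹, hn⟩, ?_⟩
      show ((g * a⁻¹ * 1 : Q) : Q ⧸ A) = _
      rw [QuotientGroup.eq]
      have : (g * a⁻¹ * 1)⁻¹ * g = a := by group
      rw [this]
      exact ha
    · rintro ⟨n, hn⟩ d hd
      rw [smul_mk_eq]
      have h2 : ((n * 1 : Q) : Q ⧸ A) = (g : Q ⧸ A) := hn
      rw [QuotientGroup.eq, mul_one] at h2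
      have h3 : (n : Q)⁻¹ * d * n ∈ Y := by
        have := (n⁻¹).2 d
        rw [SetLike.mem_coe, SetLike.mem_coe] at this
        have h4 := this.1 hd
        push_cast at h4
        rwa [inv_inv] at h4
      have e : g⁻¹ * d * g = ((n : Q)⁻¹ * g)⁻¹ * ((n : Q)⁻¹ * d * n) * ((n : Q)⁻¹ * g) := by group
      rw [e]
      exact A.mul_mem (A.mul_mem (A.inv_mem h2) (hY h3)) h2
  have h2 : stabilizer (normalizer (Y : Set Q)) ((1 : Q) : Q ⧸ A) = A.subgroupOf (normalizer (Y : Set Q)) := by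
    ext n
    rw [mem_stabilizer_iff, mem_subgroupOf]
    show ((n * 1 : Q) : Q ⧸ A) = _ ↔ _
    rw [eq_comm, QuotientGroup.eq]
    simp
  rw [h1, Nat.card_congr (orbitEquivQuotientStabilizer _ _), h2]
  have h3 := (A.subgroupOf (normalizer (Y : Set Q))).card_mul_index
  rw [Subgroup.index, mul_comm] at h3
  rw [← h3]
  congr 1
  refine Nat.card_congr ⟨fun a => ⟨⟨a.1, a.2.1⟩, mem_subgroupOf.2 a.2.2⟩, fun a => ⟨a.1, a.1.2, mem_subgroupOf.1 a.2⟩,
    fun a => rfl, fun a => rfl⟩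

/-- **Fixed points of a Sylow subgroup `Y` of `A` on `A ⧸ M`, `Y ≤ M ≤ A`**: `|Fix(Y)| |N_M(Y)| = |N_A(Y)|`. -/
theorem fr_sylow {A M Y : Subgroup Q} {s : ℕ} [Fact s.Prime] (hM : M ≤ A) (hY : Y ≤ M)
    (hc : Nat.card Y = s ^ (Nat.card A).factorization s) :
    fr A M Y * Nat.card (normalizer (Y : Set Q) ⊓ M : Subgroup Q) = Nat.card (normalizer (Y : Set Q) ⊓ A : Subgroup Q) := by
  have hYc : Nat.card (Y.subgroupOf A) = s ^ (Nat.card (M.subgroupOf A)).factorization s := by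
    rw [Nat.card_congr (Subgroup.subgroupOfEquivOfLe (hY.trans hM)).toEquiv,
      Nat.card_congr (Subgroup.subgroupOfEquivOfLe hM).toEquiv]
    have h1 : Nat.card M ∣ Nat.card A := Subgroup.card_dvd_of_le hM
    have h2 : Nat.card Y ∣ Nat.card M := Subgroup.card_dvd_of_le hY
    rw [hc]
    congr 1
    apply le_antisymm
    · rw [hc] at h2
      exact ((Fact.out : s.Prime).pow_dvd_iff_le_factorization Nat.card_pos.ne').1 h2
    · exact (Nat.factorization_le_iff_dvd Nat.card_pos.ne' Nat.card_pos.ne').2 h1 s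
  have h := fx_sylow (A := M.subgroupOf A) (Y := Y.subgroupOf A) (s := s)
    (fun a ha => mem_subgroupOf.2 (hY (mem_subgroupOf.1 ha))) hYc
  have hN : ∀ a : A, a ∈ normalizer ((Y.subgroupOf A : Subgroup A) : Set A) ↔ (a : Q) ∈ normalizer (Y : Set Q) := by
    intro a
    constructor
    · intro h n
      constructor
      · intro hn
        exact mem_subgroupOf.1 ((h ⟨n, hM (hY hn)⟩).1 (mem_subgroupOf.2 hn))
      · intro hn
        have hnA : n ∈ A := by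
          have : n = (a : Q)⁻¹ * (a * n * (a : Q)⁻¹) * a := by group
          rw [this]
          exact A.mul_mem (A.mul_mem (A.inv_mem a.2) (hM (hY hn))) a.2
        exact mem_subgroupOf.1 ((h ⟨n, hnA⟩).2 (mem_subgroupOf.2 hn))
    · intro h n
      exact ⟨fun hn => mem_subgroupOf.2 ((h n).1 (mem_subgroupOf.1 hn)), fun hn => mem_subgroupOf.2 ((h n).2 (mem_subgroupOf.1 hn))⟩
  rw [← fr_eq] at h
  have e1 : Nat.card (normalizer ((Y.subgroupOf A : Subgroup A) : Set A) ⊓ M.subgroupOf A : Subgroup A) =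
      Nat.card (normalizer (Y : Set Q) ⊓ M : Subgroup Q) :=
    Nat.card_congr ⟨fun a => ⟨a.1, (hN a.1).1 a.2.1, mem_subgroupOf.1 a.2.2⟩,
      fun a => ⟨⟨a.1, hM a.2.2⟩, (hN _).2 a.2.1, mem_subgroupOf.2 a.2.2⟩, fun a => rfl, fun a => rfl⟩
  have e2 : Nat.card (normalizer ((Y.subgroupOf A : Subgroup A) : Set A)) =
      Nat.card (normalizer (Y : Set Q) ⊓ A : Subgroup Q) :=
    Nat.card_congr ⟨fun a => ⟨a.1, (hN a.1).1 a.2, a.1.2⟩,
      fun a => ⟨⟨a.1, a.2.2⟩, (hN _).2 a.2.1⟩, fun a => rfl, fun a => rfl⟩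
  rw [e1, e2] at h
  exact h

/-- a subgroup of `A` conjugate into `M` has a fixed point -/
theorem fr_pos {A M D : Subgroup Q} {a : Q} (ha : a ∈ A) (h : ∀ d ∈ D, a⁻¹ * d * a ∈ M) : 0 < fr A M D := by
  unfold fr
  rw [Nat.card_pos_iff]
  refine ⟨⟨((⟨a, ha⟩ : A) : A ⧸ _), fun d hd => ?_⟩, inferInstance⟩
  rw [smul_mk_eq]
  exact mem_subgroupOf.2 (h d hd)

end Cfsg.Agent.H475.EP
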