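import Cfsg.Agent.H156.SqPhi
import Cfsg.Agent.LieClassical.SLGen

/-!
The homomorphism `GL_k(F) →* GL(V)` of a Witt frame of any `(σ, ε)`-hermitian form (S4929, task 5309): `A` on the `e_{ι i}`, the
`σ`-twisted transposed inverse on the `f_{ι i}`; the transvections go to the root elements `X (ι i, true) (ι j, false) t`.
-/

set_option autoImplicit false
set_option linter.unusedSectionVars false

namespace Cfsg.Agent.H475.EP

open Matrix
open Cfsg.Agent.TitsThree.Siegel Cfsg.Agent.TitsThree.WittFrame Cfsg.Agent.TitsThree.WittWeyl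
open Cfsg.Agent.H156.SqPhi

variable {F : Type*} [Field F] {V : Type*} [AddCommGroup V] [Module F V] {H : HForm F V} {n k : ℕ}
  (Fr : Frame H (Fin n)) {ι : Fin k → Fin n} (hι : Function.Injective ι)

/-- the `σ`-twisted transposed inverse -/
def tw (H : HForm F V) (A : GL (Fin k) F) : Matrix (Fin k) (Fin k) F := ((A⁻¹).1.map H.σ)ᵀ

theorem tw_one : tw H (1 : GL (Fin k) F) = 1 := by
  unfold tw
  rw [inv_one, Units.val_one, Matrix.map_one _ (map_zero _) (map_one _), transpose_one]

theorem tw_mul (A B : GL (Fin k) F) : tw H (A * B) = tw H A * tw H B := by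
  unfold tw
  rw [_root_.mul_inv_rev, ← transpose_mul]
  congr 1
  ext i j
  simp [Matrix.mul_apply, map_sum, map_mul]

/-- the homomorphism to the endomorphisms -/
def PhiEndU : GL (Fin k) F →* Module.End F V where
  toFun A := LM Fr ι A.1 (tw H A)
  map_one' := by
    ext v
    rw [LM_apply, tw_one]
    simp
  map_mul' A B := by
    ext v
    rw [Module.End.mul_apply, LM_mul Fr hι, tw_mul]
    rfl

/-- the homomorphism `GL_k(F) →* GL(V)` -/
def PhiU : GL (Fin k) F →* (V ≃ₗ[F] V) :=
  (LinearMap.GeneralLinearGroup.generalLinearEquiv F V).toMonoidHom.comp (PhiEndU Fr hι).toHomUnits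

theorem PhiU_apply (A : GL (Fin k) F) (v : V) :
    PhiU Fr hι A v = v + eT Fr ι ((A.1 - 1) *ᵥ cT Fr ι v) + eF Fr ι ((tw H A - 1) *ᵥ cF Fr ι v) := rfl

/-- transvections go to root elements -/
theorem PhiU_transvection {i j : Fin k} (hij : i ≠ j) (c : F) :
    PhiU Fr hι (SpecialLinearGroup.transvection hij c : GL (Fin k) F) = Fr.X (ι i, true) (ι j, false) c := by
  have hne : ((ι i, true) : Fin n × Bool).1 ≠ ((ι j, false) : Fin n × Bool).1 := fun h => hij (hι h)
  ext v
  rw [X_apply Fr hne, PhiU_apply]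
  have h1 : ((SpecialLinearGroup.transvection hij c : GL (Fin k) F)).1 - 1 = single i j c := by
    change (1 + single i j c) - 1 = _
    rw [add_sub_cancel_left]
  have h2 : ((SpecialLinearGroup.transvection hij c : GL (Fin k) F)⁻¹).1 = 1 + single i j (-c) := by
    refine Units.inv_eq_of_mul_eq_one_right ?_
    exact (transvection_mul_transvection_same i j hij c (-c)).trans (by rw [add_neg_cancel, transvection_zero])
  have h2' : tw H (SpecialLinearGroup.transvection hij c : GL (Fin k) F) - 1 = single j i (-(H.σ c)) := by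
    unfold tw
    rw [h2]
    ext a b
    simp only [transpose_apply, map_apply, Matrix.add_apply, Matrix.sub_apply, one_apply, single_apply, map_add]
    by_cases hab : b = a
    · subst hab
      by_cases h3 : i = b ∧ j = b
      · exact absurd (h3.1.trans h3.2.symm) hij
      · simp [h3, show ¬ (j = b ∧ i = b) from fun h => h3 ⟨h.2, h.1⟩]
    · have hab' : ¬ a = b := fun h => hab h.symm
      by_cases h3 : i = b ∧ j = a
      · simp [h3, hab, hab']
      · simp [h3, hab, hab', show ¬ (j = a ∧ i = b) from fun h => h3 ⟨h.2, h.1⟩]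
  rw [h1, h2', single_mulVec, single_mulVec]
  have h3 : ∀ (i : Fin k) (a : F), eT Fr ι (Pi.single i a) = a • Fr.b (ι i, true) := by
    intro i a
    rw [eT, Fintype.linearCombination_apply_single]
  have h4 : ∀ (i : Fin k) (a : F), eF Fr ι (Pi.single i a) = a • Fr.b (ι i, false) := by
    intro i a
    rw [eF, Fintype.linearCombination_apply_single]
  rw [← Pi.single, ← Pi.single, h3, h4, cT_apply, cF_apply, σ_sc]
  have e1 : Fr.η (ι j, false) = 1 := rfl
  simp only [Frame.sc, e1, inv_one, mul_one]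
  have h5 := H.ε_ne
  have e4 : -(H.ε⁻¹ * -(H.ε * c) * H.h v (Fr.b (ι j, false))) = c * H.h v (Fr.b (ι j, false)) := by
    field_simp
  rw [sub_eq_add_neg, ← neg_smul, e4]
  have e5 : H.h v (Fr.b (ι i, true)) * -(H.ε⁻¹ * H.σ c) = -H.σ c * (H.ε⁻¹ * H.h v (Fr.b (ι i, true))) := by ring
  rw [e5]
  abel

theorem PhiU_bT (A : GL (Fin k) F) (i : Fin k) :
    PhiU Fr hι A (Fr.b (ι i, true)) = eT Fr ι (A.1 *ᵥ Pi.single i 1) := by
  have h3 : Fr.b (ι i, true) = eT Fr ι (Pi.single i 1) := by
    rw [eT, Fintype.linearCombination_apply_single, one_smul]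
  rw [PhiU_apply]
  rw [h3, cT_eT Fr hι, cF_eT, mulVec_zero, map_zero, add_zero, sub_mulVec, one_mulVec, map_sub]
  abel

theorem PhiU_bF (A : GL (Fin k) F) (i : Fin k) :
    PhiU Fr hι A (Fr.b (ι i, false)) = eF Fr ι (tw H A *ᵥ Pi.single i 1) := by
  have h3 : Fr.b (ι i, false) = eF Fr ι (Pi.single i 1) := by
    rw [eF, Fintype.linearCombination_apply_single, one_smul]
  rw [PhiU_apply]
  rw [h3, cF_eF Fr hι, cT_eF, mulVec_zero, map_zero, add_zero, sub_mulVec, one_mulVec, map_sub]
  abel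

variable {G0 : Subgroup (V ≃ₗ[F] V)}

theorem PhiU_mem (hX : ∀ a b t, Fr.X a b t ∈ G0) (A : SpecialLinearGroup (Fin k) F) :
    PhiU Fr hι (SpecialLinearGroup.toGL A) ∈ G0 := by
  have h1 : (⊤ : Subgroup (SpecialLinearGroup (Fin k) F)) ≤ G0.comap ((PhiU Fr hι).comp SpecialLinearGroup.toGL) := by
    rw [← Cfsg.Agent.LieClassical.SLGen.closure_transvections, Subgroup.closure_le]
    rintro _ ⟨i, j, hij, c, rfl⟩
    change PhiU Fr hι (SpecialLinearGroup.transvection hij c : GL (Fin k) F) ∈ G0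
    rw [PhiU_transvection Fr hι]
    exact hX _ _ _
  exact h1 (Subgroup.mem_top A)

/-- the homomorphism `SL_k(F) →* G0` -/
def phiU (hX : ∀ a b t, Fr.X a b t ∈ G0) : SpecialLinearGroup (Fin k) F →* ↥G0 :=
  ((PhiU Fr hι).comp SpecialLinearGroup.toGL).codRestrict G0 (PhiU_mem Fr hι hX)

theorem coe_phiU (hX : ∀ a b t, Fr.X a b t ∈ G0) (A : SpecialLinearGroup (Fin k) F) :
    ((phiU Fr hι hX A : ↥G0) : V ≃ₗ[F] V) = PhiU Fr hι (A : GL (Fin k) F) := rfl

theorem phiU_transvection (hX : ∀ a b t, Fr.X a b t ∈ G0) {i j : Fin k} (hij : i ≠ j) (c : F) :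
    phiU Fr hι hX (SpecialLinearGroup.transvection hij c) = ⟨Fr.X (ι i, true) (ι j, false) c, hX _ _ _⟩ := by
  apply Subtype.ext
  rw [coe_phiU, PhiU_transvection Fr hι]

/-- an element of `SL_k(F)` acting on `V` by preserving all lines is a scalar `c` with `c * σ c = 1` -/
theorem scalar_of_lines (hk : 2 ≤ k) (A : GL (Fin k) F) (hs : ∀ v, ∃ a : F, PhiU Fr hι A v = a • v) :
    ∃ c : F, A.1 = c • (1 : Matrix (Fin k) (Fin k) F) ∧ c * H.σ c = 1 := by
  classical
  -- the coordinates of the images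
  have hT : ∀ i : Fin k, ∃ a : F, A.1 *ᵥ Pi.single i 1 = a • Pi.single i 1 := by
    intro i
    obtain ⟨a, ha⟩ := hs (Fr.b (ι i, true))
    refine ⟨a, ?_⟩
    rw [PhiU_bT] at ha
    have h3 : Fr.b (ι i, true) = eT Fr ι (Pi.single i 1) := by
      rw [eT, Fintype.linearCombination_apply_single, one_smul]
    rw [h3] at ha
    have := congrArg (cT Fr ι) ha
    rwa [cT_eT Fr hι, map_smul, cT_eT Fr hι] at this
  have hF : ∀ i : Fin k, ∃ a : F, tw H A *ᵥ Pi.single i 1 = a • Pi.single i 1 := by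
    intro i
    obtain ⟨a, ha⟩ := hs (Fr.b (ι i, false))
    refine ⟨a, ?_⟩
    rw [PhiU_bF] at ha
    have h3 : Fr.b (ι i, false) = eF Fr ι (Pi.single i 1) := by
      rw [eF, Fintype.linearCombination_apply_single, one_smul]
    rw [h3] at ha
    have := congrArg (cF Fr ι) ha
    rwa [cF_eF Fr hι, map_smul, cF_eF Fr hι] at this
  choose a ha using hT
  choose b hb using hF
  -- `a i = b j` for all `i j`
  have hab : ∀ i j, a i = b j := by
    intro i j
    obtain ⟨c, hc⟩ := hs (Fr.b (ι i, true) + Fr.b (ι j, false))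
    rw [map_add, PhiU_bT, PhiU_bF, ha, hb] at hc
    have h3 : Fr.b (ι i, true) = eT Fr ι (Pi.single i 1) := by
      rw [eT, Fintype.linearCombination_apply_single, one_smul]
    have h4 : Fr.b (ι j, false) = eF Fr ι (Pi.single j 1) := by
      rw [eF, Fintype.linearCombination_apply_single, one_smul]
    rw [h3, h4] at hc
    have h5 := congrArg (cT Fr ι) hc
    have h6 := congrArg (cF Fr ι) hc
    simp only [map_add, map_smul, cT_eT Fr hι, cT_eF, cF_eF Fr hι, cF_eT, add_zero, zero_add] at h5 h6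
    have h7 := congrFun h5 i
    have h8 := congrFun h6 j
    simp at h7 h8
    rw [h7, h8]
  obtain ⟨i0⟩ : Nonempty (Fin k) := ⟨⟨0, by omega⟩⟩
  refine ⟨b i0, ?_, ?_⟩
  · ext i j
    have h1 := congrFun (ha j) i
    rw [mulVec_single_one] at h1
    rw [hab j i0] at h1
    simp only [Matrix.col_apply, Pi.smul_apply, smul_eq_mul] at h1
    rw [h1, Matrix.smul_apply, smul_eq_mul, one_apply, Pi.single_apply]
  · -- `A⁻¹ = a⁻¹`
    have h1 : A.1 = b i0 • (1 : Matrix (Fin k) (Fin k) F) := by
      ext i j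
      have h1 := congrFun (ha j) i
      rw [mulVec_single_one] at h1
      rw [hab j i0] at h1
      simp only [Matrix.col_apply, Pi.smul_apply, smul_eq_mul] at h1
      rw [h1, Matrix.smul_apply, smul_eq_mul, one_apply, Pi.single_apply]
    have h2 : b i0 • (A⁻¹).1 = 1 := by
      have h3 : A.1 * (A⁻¹).1 = 1 := by rw [← Units.val_mul, mul_inv_cancel, Units.val_one]
      rw [h1, smul_mul_assoc, one_mul] at h3
      exact h3
    have h3 : b i0 * (A⁻¹).1 i0 i0 = 1 := by
      have := congrFun (congrFun h2 i0) i0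
      rwa [Matrix.smul_apply, smul_eq_mul, one_apply_eq] at this
    have h4 := congrFun (hb i0) i0
    rw [mulVec_single_one] at h4
    simp only [Matrix.col_apply, Pi.smul_apply, smul_eq_mul, Pi.single_eq_same, mul_one] at h4
    have h5 : H.σ ((A⁻¹).1 i0 i0) = b i0 := h4
    have h6 : H.σ (b i0) = (A⁻¹).1 i0 i0 := by rw [← h5, H.σσ]
    rw [h6]
    exact h3

end Cfsg.Agent.H475.EP
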